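import Cfsg.Agent.Lib.Grp.Loc3
import Cfsg.Agent.Lib.OutS.J3

/-!
# Dictionaries for the third Janko group
-/

set_option autoImplicit false

namespace Cfsg.Lib.Mod.J3

open Cfsg.Lib.Calc Cfsg.Lib.F2 Cfsg.Lib.Grp

/-- the base -/
def bs : List ℕ := [293, 2522, 3060, 4974]

theorem hasCx {G : Type*} [Group G] (h : Spor.IsoJ3 G) (w0 : List (List ℕ)) :
    HasCx G 6156 (ap2 13) 50232960 (dicV OutS.J3.net 6156 13 (ap2 13) w0 []) bs := by
  obtain ⟨F, _, _, ω, hF, hω, ⟨e⟩⟩ := h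
  obtain ⟨_, M⟩ := OutS.J3.exists_netG (IsF4.of_card hF hω)
  exact (M.hasCx OutS.J3.cA (ap2_eq 13) w0 []).congr e

end Cfsg.Lib.Mod.J3
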